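import Cfsg.Agent.GLFlag.Cyclic

/-!
The fixed flags of a cyclic element correspond to ordered factorisations.
-/

set_option autoImplicit false

namespace CfsgLib.GLFlag

open Polynomial Matrix

variable {F : Type*} [Field F] {n : ℕ} {P : F[X]}

/-- Ordered monic factorisations of `P` with prescribed degrees. -/
abbrev Factors (P : F[X]) (μ : Fin n → ℕ) : Type _ :=
  {Q : Fin n → F[X] // (∀ j, (Q j).Monic ∧ (Q j).natDegree = μ j) ∧ ∏ j, Q j = P}

/-- The product of the factors of index at least `k`. -/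
noncomputable def tailProd (Q : Fin n → F[X]) (k : ℕ) : F[X] :=
  ∏ j ∈ Finset.univ.filter (fun j : Fin n => k ≤ j.val), Q j

theorem tailProd_succ (Q : Fin n → F[X]) (j : Fin n) :
    tailProd Q j.val = Q j * tailProd Q (j.val + 1) := by
  unfold tailProd
  rw [show (Finset.univ.filter fun i : Fin n => j.val ≤ i.val)
      = insert j (Finset.univ.filter fun i : Fin n => j.val + 1 ≤ i.val) by
    ext i; simp only [Finset.mem_filter, Finset.mem_univ, true_and, Finset.mem_insert, Fin.ext_iff]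
    omega]
  rw [Finset.prod_insert (by simp)]

theorem tailProd_mul_head (Q : Fin n → F[X]) (k : ℕ) :
    tailProd Q k * ∏ j ∈ Finset.univ.filter (fun j : Fin n => j.val < k), Q j = ∏ j, Q j := by
  rw [← Finset.prod_filter_mul_prod_filter_not Finset.univ (fun j : Fin n => k ≤ j.val) Q]
  refine congrArg (tailProd Q k * ·) ?_
  exact Finset.prod_congr (Finset.filter_congr fun j _ => by omega) fun _ _ => rfl

theorem tail_facts {μ : Fin n → ℕ} (hP : Good P n) (hμ : ∑ i, μ i = n) (Q : Factors P μ) (k : ℕ) :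
    (tailProd Q.1 k).Monic ∧ tailProd Q.1 k ∣ P ∧ (tailProd Q.1 k).natDegree + psum μ k = n := by
  have hm : (tailProd Q.1 k).Monic := monic_prod_of_monic _ _ fun j _ => (Q.2.1 j).1
  have hm' : (∏ j ∈ Finset.univ.filter (fun j : Fin n => j.val < k), Q.1 j).Monic :=
    monic_prod_of_monic _ _ fun j _ => (Q.2.1 j).1
  refine ⟨hm, ⟨_, ((tailProd_mul_head Q.1 k).trans Q.2.2).symm⟩, ?_⟩
  have h := congrArg natDegree (tailProd_mul_head Q.1 k)
  rw [Q.2.2, hP.deg, hm.natDegree_mul hm',
    natDegree_prod_of_monic _ _ (fun j _ => (Q.2.1 j).1) ] at h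
  have hs : ∑ j ∈ Finset.univ.filter (fun j : Fin n => j.val < k), (Q.1 j).natDegree = psum μ k :=
    Finset.sum_congr rfl fun j _ => (Q.2.1 j).2
  rw [hs] at h
  omega

theorem finrank_below {s : ℕ} (hs : s ≤ n) : Module.finrank F (Below F n s) = s := by
  let ext : (Fin s → F) →ₗ[F] (Fin n → F) :=
    { toFun := fun v i => if h : i.val < s then v ⟨i.val, h⟩ else 0
      map_add' := fun v w => funext fun i => by
        simp only [Pi.add_apply]
        split_ifs <;> simp
      map_smul' := fun c v => funext fun i => by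
        simp only [Pi.smul_apply, smul_eq_mul, RingHom.id_apply]
        split_ifs <;> simp }
  have hinj : Function.Injective ext := fun v w h => funext fun i => by
    have := congrFun h (Fin.castLE hs i)
    simpa [ext] using this
  have hr : LinearMap.range ext = Below F n s := by
    ext v
    constructor
    · rintro ⟨w, rfl⟩ i hi
      exact dif_neg (not_lt.2 hi)
    · intro hv
      refine ⟨fun i => v (Fin.castLE hs i), funext fun i => ?_⟩
      show dite _ _ _ = _
      split_ifs with h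
      · rfl
      · exact (hv i (not_lt.1 h)).symm
  rw [← hr, LinearMap.finrank_range_of_inj hinj, Module.finrank_fin_fun]

/-- The image flag of `h`, as residues. -/
noncomputable def flag (hP : Good P n) (μ : Fin n → ℕ) (h : GL (Fin n) F) (k : ℕ) :
    Submodule F (AdjoinRoot P) :=
  (Below F n (psum μ k)).map
    ((equivQuot hP).toLinearMap ∘ₗ (h : Matrix (Fin n) (Fin n) F).mulVecLin)

theorem mem_flag {hP : Good P n} {μ : Fin n → ℕ} {h : GL (Fin n) F} {k : ℕ} {x : AdjoinRoot P} :
    x ∈ flag hP μ h k ↔ ∃ v ∈ Below F n (psum μ k),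
      equivQuot hP ((h : Matrix (Fin n) (Fin n) F) *ᵥ v) = x :=
  Iff.rfl

theorem gl_mulVec_cancel (h : GL (Fin n) F) (v : Fin n → F) :
    ((h⁻¹ : GL (Fin n) F) : Matrix (Fin n) (Fin n) F) *ᵥ ((h : Matrix (Fin n) (Fin n) F) *ᵥ v) = v := by
  rw [mulVec_mulVec, ← Units.val_mul, inv_mul_cancel, Units.val_one, one_mulVec]

theorem gl_mulVec_cancel' (h : GL (Fin n) F) (v : Fin n → F) :
    (h : Matrix (Fin n) (Fin n) F) *ᵥ (((h⁻¹ : GL (Fin n) F) : Matrix (Fin n) (Fin n) F) *ᵥ v) = v := by
  rw [mulVec_mulVec, ← Units.val_mul, mul_inv_cancel, Units.val_one, one_mulVec]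

theorem finrank_flag (hP : Good P n) {μ : Fin n → ℕ} (hμ : ∑ i, μ i = n) (h : GL (Fin n) F)
    (k : ℕ) : Module.finrank F (flag hP μ h k) = psum μ k := by
  rw [flag, ← (Submodule.equivMapOfInjective _ ?_ _).finrank_eq,
    finrank_below ((psum_le μ k).trans hμ.le)]
  exact (equivQuot hP).injective.comp
    (Matrix.mulVec_injective_iff_isUnit.2 h.isUnit)

theorem flag_eq_iff (hP : Good P n) {μ : Fin n → ℕ} (hμ : ∑ i, μ i = n) (h h' : GL (Fin n) F) :
    h⁻¹ * h' ∈ Cfsg.parabolicGL n F μ ↔ ∀ k ≤ n, flag hP μ h' k = flag hP μ h k := by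
  have hle : ∀ a b : GL (Fin n) F, a⁻¹ * b ∈ Cfsg.parabolicGL n F μ →
      ∀ k ≤ n, flag hP μ b k ≤ flag hP μ a k := by
    intro a b hab k hk x hx
    obtain ⟨v, hv, rfl⟩ := mem_flag.1 hx
    refine mem_flag.2 ⟨_, (mem_parabolic_iff μ hμ _).1 hab k hk v hv, ?_⟩
    rw [Units.val_mul, ← mulVec_mulVec, gl_mulVec_cancel']
  constructor
  · intro hm k hk
    refine le_antisymm (hle h h' hm k hk) (hle h' h ?_ k hk)
    simpa using (Cfsg.parabolicGL n F μ).inv_mem hm
  · intro heq
    rw [mem_parabolic_iff μ hμ]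
    intro k hk v hv
    obtain ⟨w, hw, hw'⟩ := mem_flag.1 ((heq k hk) ▸ mem_flag.2 ⟨v, hv, rfl⟩)
    rw [Units.val_mul, ← mulVec_mulVec, ← (equivQuot hP).injective hw', gl_mulVec_cancel]
    exact hw

theorem fixed_iff (hP : Good P n) {μ : Fin n → ℕ} (hμ : ∑ i, μ i = n) (h : GL (Fin n) F) :
    cyclicGL hP • (QuotientGroup.mk h : GL (Fin n) F ⧸ Cfsg.parabolicGL n F μ) = QuotientGroup.mk h
      ↔ ∀ k ≤ n, ∀ x ∈ flag hP μ h k, AdjoinRoot.root P * x ∈ flag hP μ h k := by
  rw [MulAction.Quotient.smul_mk, eq_comm, QuotientGroup.eq, smul_eq_mul, mem_parabolic_iff μ hμ]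
  constructor
  · intro hh k hk x hx
    obtain ⟨v, hv, rfl⟩ := mem_flag.1 hx
    refine mem_flag.2 ⟨_, hh k hk v hv, ?_⟩
    rw [← cyclicGL_mulVec, Units.val_mul, ← mulVec_mulVec, gl_mulVec_cancel', Units.val_mul,
      ← mulVec_mulVec]
  · intro hh k hk v hv
    obtain ⟨w, hw, hw'⟩ := mem_flag.1 (hh k hk _ (mem_flag.2 ⟨v, hv, rfl⟩))
    rw [← cyclicGL_mulVec] at hw'
    rw [Units.val_mul, Units.val_mul, ← mulVec_mulVec, ← mulVec_mulVec,
      ← (equivQuot hP).injective hw', gl_mulVec_cancel]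
    exact hw

/-- Every factorisation comes from a flag. -/
theorem exists_frame (hP : Good P n) {μ : Fin n → ℕ} (hμ : ∑ i, μ i = n) (Q : Factors P μ) :
    ∃ h : GL (Fin n) F, ∀ k ≤ n, flag hP μ h k = multiples P (tailProd Q.1 k) (psum μ k) := by
  classical
  set L := Cfsg.compLabel μ with hL
  set D : ℕ → F[X] := tailProd Q.1 with hD
  have hlab : ∀ i : Fin n, i.val < psum μ (L i + 1) := fun i =>
    (compLabel_lt_iff μ (compLabel_lt μ hμ i) i).1 (Nat.lt_succ_self _)
  set b : Fin n → F[X] := fun i => D (L i + 1) * X ^ (psum μ (L i + 1) - 1 - i.val) with hb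
  have hbm : ∀ i, (b i).Monic := fun i => (tail_facts hP hμ Q _).1.mul (monic_X_pow _)
  have hbd : ∀ i, (b i).natDegree = n - 1 - i.val := by
    intro i
    rw [hb]
    show (D (L i + 1) * X ^ _).natDegree = _
    rw [(tail_facts hP hμ Q _).1.natDegree_mul (monic_X_pow _), natDegree_X_pow]
    have := (tail_facts hP hμ Q (L i + 1)).2.2
    have := hlab i
    show (tailProd Q.1 (L i + 1)).natDegree + _ = _
    omega
  let T : (Fin n → F) →ₗ[F] F[X] :=
    { toFun := fun c => ∑ i, C (c i) * b i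
      map_add' := fun c d => by simp [add_mul, Finset.sum_add_distrib]
      map_smul' := fun a c => by simp [Finset.smul_sum, smul_eq_C_mul, mul_assoc] }
  have hTdeg : ∀ c, (T c).degree < n := by
    intro c
    show (∑ i, C (c i) * b i).degree < _
    refine lt_of_le_of_lt (degree_sum_le _ _) ((Finset.sup_lt_iff (WithBot.bot_lt_coe n)).2 ?_)
    intro i _
    refine lt_of_le_of_lt degree_le_natDegree ?_
    refine WithBot.coe_lt_coe.2 (lt_of_le_of_lt natDegree_mul_le ?_)
    rw [natDegree_C, hbd, zero_add]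
    have := i.isLt
    omega
  have hTinj : Function.Injective T := by
    rw [injective_iff_map_eq_zero]
    intro c hc
    by_contra hne
    have hex : (Finset.univ.filter fun i => c i ≠ 0).Nonempty := by
      obtain ⟨i, hi⟩ := Function.ne_iff.1 hne
      exact ⟨i, by simpa using hi⟩
    set i := (Finset.univ.filter fun i => c i ≠ 0).min' hex with hi
    have hci : c i ≠ 0 := (Finset.mem_filter.1 ((Finset.univ.filter fun i => c i ≠ 0).min'_mem hex)).2
    have h1 : (T c).coeff (n - 1 - i.val) = c i := by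
      show (∑ j, C (c j) * b j).coeff _ = _
      rw [finset_sum_coeff, Finset.sum_eq_single i]
      · rw [coeff_C_mul, ← hbd i]
        rw [coeff_natDegree, (hbm i).leadingCoeff, mul_one]
      · intro j _ hji
        rw [coeff_C_mul]
        by_cases hcj : c j = 0
        · rw [hcj, zero_mul]
        · have hij : i ≤ j := Finset.min'_le _ j (by simpa using hcj)
          rw [coeff_eq_zero_of_natDegree_lt, mul_zero]
          rw [hbd]
          have := lt_of_le_of_ne hij (Ne.symm hji)
          rw [Fin.lt_def] at this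
          have := j.isLt
          omega
      · simp
    rw [hc, coeff_zero] at h1
    exact hci h1.symm
  set φ : (Fin n → F) →ₗ[F] (Fin n → F) :=
    (equivQuot hP).symm.toLinearMap ∘ₗ (AdjoinRoot.mkₐ P).toLinearMap ∘ₗ T with hφ
  have hφinj : Function.Injective φ := by
    refine (equivQuot hP).symm.injective.comp fun c d h => ?_
    obtain ⟨v, hv⟩ := exists_poly (hTdeg c)
    obtain ⟨w, hw⟩ := exists_poly (hTdeg d)
    apply hTinj
    rw [← hv, ← hw]
    congr 1
    apply (toQuot_bijective hP).1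
    rw [toQuot_apply, toQuot_apply, hv, hw]
    exact h
  have hU : IsUnit (LinearMap.toMatrix' φ) := by
    rw [← Matrix.mulVec_injective_iff_isUnit]
    intro v w h
    rw [LinearMap.toMatrix'_mulVec, LinearMap.toMatrix'_mulVec] at h
    exact hφinj h
  refine ⟨hU.unit, fun k hk => ?_⟩
  obtain ⟨hDm, hDd, hDdeg⟩ := tail_facts hP hμ Q k
  haveI : Module.Finite F (AdjoinRoot P) := hP.monic.finite_adjoinRoot
  refine Submodule.eq_of_le_of_finrank_eq ?_
    (by rw [finrank_flag hP hμ, finrank_multiples hDm hP hDdeg])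
  intro x hx
  obtain ⟨v, hv, rfl⟩ := mem_flag.1 hx
  rw [IsUnit.unit_spec, LinearMap.toMatrix'_mulVec, hφ]
  simp only [LinearMap.comp_apply, LinearEquiv.coe_coe, LinearEquiv.apply_symm_apply]
  show AdjoinRoot.mk P (∑ i, C (v i) * b i) ∈ _
  obtain ⟨E, hE⟩ : D k ∣ ∑ i, C (v i) * b i := by
    refine Finset.dvd_sum fun i _ => ?_
    by_cases hi : psum μ k ≤ i.val
    · rw [hv i hi, C_0, zero_mul]; exact dvd_zero _
    · refine ((Dvd.dvd.mul_right ?_ _)).mul_left _
      have hlk := (compLabel_lt_iff μ hk i).2 (not_le.1 hi)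
      refine Finset.prod_dvd_prod_of_subset _ _ _ fun j hj => ?_
      simp only [Finset.mem_filter, Finset.mem_univ, true_and] at hj ⊢
      exact le_trans hlk hj
  rw [hE]
  exact mk_mul_mem_multiples hDm hDd hP hDdeg E

theorem multiples_inj (hP : Good P n) {D D' : F[X]} (hD : D.Monic) (hD' : D'.Monic) (hd : D ∣ P)
    (hd' : D' ∣ P) {m : ℕ} (hm : D.natDegree + m = n) (hm' : D'.natDegree + m = n)
    (h : multiples P D m = multiples P D' m) : D = D' :=
  eq_of_monic_of_associated hD hD' (associated_of_dvd_dvd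
    (dvd_of_multiples_le hD' hd' hP hm' hd h.ge) (dvd_of_multiples_le hD hd hP hm hd' h.le))

theorem card_fixed_eq (hP : Good P n) {μ : Fin n → ℕ} (hμ : ∑ i, μ i = n) :
    Nat.card (MulAction.fixedBy (GL (Fin n) F ⧸ Cfsg.parabolicGL n F μ) (cyclicGL hP))
      = Nat.card (Factors P μ) := by
  classical
  haveI : Module.Finite F (AdjoinRoot P) := hP.monic.finite_adjoinRoot
  choose H hH using fun Q : Factors P μ => exists_frame hP hμ Q
  have hfix : ∀ Q, (QuotientGroup.mk (H Q) : GL (Fin n) F ⧸ Cfsg.parabolicGL n F μ) ∈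
      MulAction.fixedBy (GL (Fin n) F ⧸ Cfsg.parabolicGL n F μ) (cyclicGL hP) := by
    intro Q
    refine (fixed_iff hP hμ _).2 fun k hk x hx => ?_
    rw [hH Q k hk] at hx ⊢
    obtain ⟨v, rfl⟩ := mem_multiples.1 hx
    obtain ⟨hDm, hDd, hDdeg⟩ := tail_facts hP hμ Q k
    rw [← AdjoinRoot.mk_X, ← map_mul, mul_left_comm]
    exact mk_mul_mem_multiples hDm hDd hP hDdeg _
  symm
  refine Nat.card_congr (Equiv.ofBijective (fun Q => ⟨_, hfix Q⟩) ⟨?_, ?_⟩)
  · intro Q Q' h
    have hmk := QuotientGroup.eq.1 (congrArg Subtype.val h)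
    have heq := (flag_eq_iff hP hμ _ _).1 hmk
    have htp : ∀ k ≤ n, tailProd Q.1 k = tailProd Q'.1 k := fun k hk => by
      obtain ⟨a1, a2, a3⟩ := tail_facts hP hμ Q k
      obtain ⟨b1, b2, b3⟩ := tail_facts hP hμ Q' k
      exact multiples_inj hP a1 b1 a2 b2 a3 b3 (by rw [← hH Q k hk, ← hH Q' k hk, heq k hk])
    refine Subtype.ext (funext fun j => ?_)
    have h1 := htp j.val j.isLt.le
    rw [tailProd_succ, tailProd_succ, htp (j.val + 1) j.isLt] at h1
    exact mul_right_cancel₀ (tail_facts hP hμ Q' _).1.ne_zero h1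
  · rintro ⟨x, hx⟩
    obtain ⟨h, rfl⟩ := QuotientGroup.mk_surjective x
    have hinv := (fixed_iff hP hμ h).1 hx
    have hex : ∀ k, ∃ D : F[X], k ≤ n → D.Monic ∧ D ∣ P ∧ D.natDegree + psum μ k = n ∧
        flag hP μ h k = multiples P D (psum μ k) := by
      intro k
      by_cases hk : k ≤ n
      · obtain ⟨D, h1, h2, h3, h4⟩ := exists_multiples hP _ (hinv k hk)
        rw [finrank_flag hP hμ] at h3 h4
        exact ⟨D, fun _ => ⟨h1, h2, h3, h4⟩⟩
      · exact ⟨0, fun hc => absurd hc hk⟩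
    choose D hD using hex
    have hdvd : ∀ j : Fin n, D (j.val + 1) ∣ D j.val := fun j => by
      obtain ⟨a1, a2, a3, a4⟩ := hD j.val j.isLt.le
      obtain ⟨b1, b2, b3, b4⟩ := hD (j.val + 1) j.isLt
      refine dvd_of_multiples_le a1 a2 hP a3 b2 (m := psum μ (j.val + 1)) ?_
      rw [← a4, ← b4]
      refine Submodule.map_mono fun v hv i hi => hv i ?_
      exact (psum_mono μ (Nat.le_succ _)).trans hi
    choose Q hQ using hdvd
    have hQm : ∀ j, (Q j).Monic := fun j =>
      ((hD (j.val + 1) j.isLt).1).of_mul_monic_left (hQ j ▸ (hD j.val j.isLt.le).1)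
    have hQd : ∀ j, (Q j).natDegree = μ j := fun j => by
      have h1 := congrArg natDegree (hQ j)
      rw [(hD (j.val + 1) j.isLt).1.natDegree_mul (hQm j)] at h1
      have h2 := (hD j.val j.isLt.le).2.2.1
      have h3 := (hD (j.val + 1) j.isLt).2.2.1
      rw [psum_succ] at h3
      omega
    have htail : ∀ d : ℕ, ∀ k, k + d = n → tailProd Q k = D k := by
      intro d
      induction d with
      | zero =>
        intro k hk
        obtain ⟨a1, -, a3, -⟩ := hD k (by omega)
        rw [show k = n by omega, psum_top, hμ] at a3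
        rw [a1.natDegree_eq_zero.1 (by rw [show k = n by omega]; omega)]
        unfold tailProd
        rw [Finset.filter_false_of_mem (fun j _ => by have := j.isLt; omega), Finset.prod_empty]
      | succ d ih =>
        intro k hk
        have hlt : k < n := by omega
        rw [show tailProd Q k = Q ⟨k, hlt⟩ * tailProd Q (k + 1) from tailProd_succ Q ⟨k, hlt⟩,
          ih (k + 1) (by omega), mul_comm, ← hQ ⟨k, hlt⟩]
    have hprod : ∏ j, Q j = P := by
      obtain ⟨a1, a2, a3, -⟩ := hD 0 (Nat.zero_le _)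
      have h0 := htail n 0 (by omega)
      rw [psum_zero, add_zero] at a3
      have : tailProd Q 0 = ∏ j, Q j := by simp [tailProd]
      rw [← this, h0]
      exact eq_of_monic_of_dvd_of_natDegree_le a1 hP.monic a2 (by rw [hP.deg, a3]) |>.symm
    refine ⟨⟨Q, fun j => ⟨hQm j, hQd j⟩, hprod⟩, Subtype.ext (QuotientGroup.eq.2 ?_)⟩
    refine (flag_eq_iff hP hμ _ _).2 fun k hk => ?_
    rw [hH ⟨Q, fun j => ⟨hQm j, hQd j⟩, hprod⟩ k hk, (hD k hk).2.2.2]
    rw [show tailProd Q k = D k from htail (n - k) k (by omega)]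

theorem character_cyclic (hP : Good P n) {μ : Fin n → ℕ} (hμ : ∑ i, μ i = n) :
    Cfsg.fixedPointCharacter (Cfsg.parabolicGL n F μ) (cyclicGL hP) = (Nat.card (Factors P μ) : ℂ) := by
  rw [← card_fixed_eq hP hμ]
  rfl

/-- Permuting the parts does not change the number of factorisations. -/
theorem card_factors_comp (μ : Fin n → ℕ) (σ : Equiv.Perm (Fin n)) :
    Nat.card (Factors P (μ ∘ σ)) = Nat.card (Factors P μ) := by
  refine Nat.card_congr
    { toFun := fun Q => ⟨Q.1 ∘ σ.symm, fun j => by simpa using Q.2.1 (σ.symm j), ?_⟩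
      invFun := fun Q => ⟨Q.1 ∘ σ, fun j => Q.2.1 (σ j), ?_⟩
      left_inv := fun Q => Subtype.ext (funext fun j => by simp)
      right_inv := fun Q => Subtype.ext (funext fun j => by simp) }
  · exact (Equiv.prod_comp σ.symm Q.1).trans Q.2.2
  · exact (Equiv.prod_comp σ Q.1).trans Q.2.2

end CfsgLib.GLFlag
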