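import Cfsg.Agent.GLFlag.CompLabel

/-!
Permutation characters of the general linear group on flags, at a cyclic element: the invariant
flags of given type are counted by the ordered factorisations of the characteristic polynomial.
-/

set_option autoImplicit false

namespace CfsgLib.GLFlag

open Polynomial

variable {F : Type*} [Field F] {n : ℕ} {P : F[X]}

/-- A vector read as a polynomial. -/
noncomputable def poly (F : Type*) [Field F] (m : ℕ) : (Fin m → F) →ₗ[F] F[X] :=
  (degreeLT F m).subtype ∘ₗ (degreeLTEquiv F m).symm.toLinearMap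

theorem degree_poly {m : ℕ} (v : Fin m → F) : (poly F m v).degree < m :=
  mem_degreeLT.1 ((degreeLTEquiv F m).symm v).2

theorem poly_injective (m : ℕ) : Function.Injective (poly F m) :=
  Subtype.val_injective.comp (degreeLTEquiv F m).symm.injective

theorem exists_poly {m : ℕ} {f : F[X]} (h : f.degree < m) : ∃ v, poly F m v = f :=
  ⟨degreeLTEquiv F m ⟨f, mem_degreeLT.2 h⟩, by simp [poly]⟩

theorem coeff_poly {m : ℕ} (v : Fin m → F) (i : Fin m) : (poly F m v).coeff i = v i :=
  congrFun ((degreeLTEquiv F m).apply_symm_apply v) i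

/-- The standing hypothesis: monic of degree `n` and nonzero constant term. -/
structure Good (P : F[X]) (n : ℕ) : Prop where
  monic : P.Monic
  deg : P.natDegree = n
  coeff_zero : P.coeff 0 ≠ 0

/-- Vectors as residues modulo `P`. -/
noncomputable def toQuot (P : F[X]) (n : ℕ) : (Fin n → F) →ₗ[F] AdjoinRoot P :=
  (AdjoinRoot.mkₐ P).toLinearMap ∘ₗ poly F n

theorem toQuot_apply (v : Fin n → F) : toQuot P n v = AdjoinRoot.mk P (poly F n v) := rfl

theorem Good.degree_eq (hP : Good P n) : P.degree = n := by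
  rw [degree_eq_natDegree hP.monic.ne_zero, hP.deg]

theorem toQuot_bijective (hP : Good P n) : Function.Bijective (toQuot P n) := by
  constructor
  · intro v w h
    rw [toQuot_apply, toQuot_apply, AdjoinRoot.mk_eq_mk] at h
    apply poly_injective n
    rw [← sub_eq_zero]
    exact eq_zero_of_dvd_of_degree_lt h (by
      rw [hP.degree_eq, ← map_sub]; exact degree_poly _)
  · intro x
    obtain ⟨f, rfl⟩ := AdjoinRoot.mk_surjective x
    obtain ⟨v, hv⟩ := exists_poly (m := n) (f := f %ₘ P)
      (hP.degree_eq ▸ degree_modByMonic_lt f hP.monic)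
    refine ⟨v, ?_⟩
    rw [toQuot_apply, hv, AdjoinRoot.mk_eq_mk]
    exact ⟨-(f /ₘ P), by linear_combination modByMonic_add_div f P⟩

/-- The identification of coordinate vectors with residues. -/
noncomputable def equivQuot (hP : Good P n) : (Fin n → F) ≃ₗ[F] AdjoinRoot P :=
  LinearEquiv.ofBijective _ (toQuot_bijective hP)

theorem isUnit_root (hP : Good P n) : IsUnit (AdjoinRoot.root P) := by
  refine isUnit_of_dvd_one ⟨-(AdjoinRoot.mk P (C (P.coeff 0)⁻¹ * P.divX)), ?_⟩
  rw [← AdjoinRoot.mk_X, ← map_neg, ← map_mul, ← map_one (AdjoinRoot.mk P), AdjoinRoot.mk_eq_mk]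
  refine ⟨C (P.coeff 0)⁻¹, ?_⟩
  have h := divX_mul_X_add P
  have h1 : C (P.coeff 0)⁻¹ * C (P.coeff 0) = 1 := by
    rw [← C_mul, inv_mul_cancel₀ hP.coeff_zero, C_1]
  linear_combination (-1 : F[X]) * h1 + C (P.coeff 0)⁻¹ * h

/-- The matrix of multiplication by the root. -/
noncomputable def cmat (hP : Good P n) : Matrix (Fin n) (Fin n) F :=
  LinearMap.toMatrix' ((equivQuot hP).symm.toLinearMap ∘ₗ
    LinearMap.mulLeft F (AdjoinRoot.root P) ∘ₗ (equivQuot hP).toLinearMap)

theorem cmat_mulVec (hP : Good P n) (v : Fin n → F) :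
    equivQuot hP ((cmat hP).mulVec v) = AdjoinRoot.root P * equivQuot hP v := by
  rw [cmat, LinearMap.toMatrix'_mulVec]
  simp

theorem isUnit_cmat (hP : Good P n) : IsUnit (cmat hP) := by
  rw [← Matrix.mulVec_injective_iff_isUnit]
  intro v w h
  have h2 := congrArg (equivQuot hP) h
  rw [cmat_mulVec, cmat_mulVec] at h2
  exact (equivQuot hP).injective ((isUnit_root hP).mul_left_cancel h2)

/-- The cyclic element attached to `P`. -/
noncomputable def cyclicGL (hP : Good P n) : GL (Fin n) F := (isUnit_cmat hP).unit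

theorem cyclicGL_mulVec (hP : Good P n) (v : Fin n → F) :
    equivQuot hP (Matrix.mulVec (cyclicGL hP : Matrix (Fin n) (Fin n) F) v)
      = AdjoinRoot.root P * equivQuot hP v :=
  cmat_mulVec hP v

/-- Multiples of `D` with a quotient of degree below `m`. -/
noncomputable def multiples (P D : F[X]) (m : ℕ) : Submodule F (AdjoinRoot P) :=
  LinearMap.range ((AdjoinRoot.mkₐ P).toLinearMap ∘ₗ LinearMap.mulLeft F D ∘ₗ poly F m)

theorem mem_multiples {D : F[X]} {m : ℕ} {x : AdjoinRoot P} :
    x ∈ multiples P D m ↔ ∃ v, AdjoinRoot.mk P (D * poly F m v) = x :=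
  LinearMap.mem_range

theorem mk_mul_mem_multiples {D : F[X]} (hD : D.Monic) (hdvd : D ∣ P) (hP : Good P n) {m : ℕ}
    (hm : D.natDegree + m = n) (f : F[X]) : AdjoinRoot.mk P (D * f) ∈ multiples P D m := by
  obtain ⟨Q, hQ⟩ := hdvd
  have hQm : Q.Monic := hD.of_mul_monic_left (hQ ▸ hP.monic)
  have hQd : Q.natDegree = m := by
    have := hD.natDegree_mul hQm
    rw [← hQ, hP.deg] at this
    omega
  obtain ⟨v, hv⟩ := exists_poly (m := m) (f := f %ₘ Q)
    (by rw [← hQd, ← degree_eq_natDegree hQm.ne_zero]; exact degree_modByMonic_lt f hQm)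
  refine mem_multiples.2 ⟨v, ?_⟩
  rw [hv, AdjoinRoot.mk_eq_mk]
  exact ⟨-(f /ₘ Q), by rw [hQ]; linear_combination D * modByMonic_add_div f Q⟩

theorem finrank_multiples {D : F[X]} (hD : D.Monic) (hP : Good P n) {m : ℕ}
    (hm : D.natDegree + m = n) : Module.finrank F (multiples P D m) = m := by
  rw [multiples, LinearMap.finrank_range_of_inj, Module.finrank_fin_fun]
  intro v w h
  apply poly_injective m
  have h' : P ∣ D * poly F m v - D * poly F m w := AdjoinRoot.mk_eq_mk.1 h
  rw [← mul_sub, ← map_sub] at h'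
  by_contra hne
  have hne' : poly F m (v - w) ≠ 0 := by rw [map_sub]; exact sub_ne_zero.2 hne
  have h0 := Polynomial.natDegree_le_of_dvd h' (mul_ne_zero hD.ne_zero hne')
  rw [natDegree_mul hD.ne_zero hne', hP.deg] at h0
  have := (natDegree_lt_iff_degree_lt hne').2 (degree_poly (v - w))
  omega

theorem multiples_mono {D D' : F[X]} (hD : D.Monic) (hdvd : D ∣ P) (hP : Good P n) {m m' : ℕ}
    (hm : D.natDegree + m = n) (h : D ∣ D') : multiples P D' m' ≤ multiples P D m := by
  intro x hx
  obtain ⟨v, rfl⟩ := mem_multiples.1 hx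
  obtain ⟨E, rfl⟩ := h
  rw [mul_assoc]
  exact mk_mul_mem_multiples hD hdvd hP hm _

theorem dvd_of_multiples_le {D D' : F[X]} (hD' : D'.Monic) (hd' : D' ∣ P) (hP : Good P n)
    {m m' : ℕ} (hm' : D'.natDegree + m' = n) (hdvd : D ∣ P)
    (h : multiples P D' m' ≤ multiples P D m) : D ∣ D' := by
  obtain ⟨v, hv⟩ := mem_multiples.1 (h (mk_mul_mem_multiples hD' hd' hP hm' 1))
  rw [mul_one, AdjoinRoot.mk_eq_mk] at hv
  exact (dvd_sub_right (dvd_mul_right D _)).1 (hdvd.trans hv)

/-- A root-invariant subspace of residues consists of the multiples of a monic divisor. -/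
theorem exists_multiples (hP : Good P n) (W : Submodule F (AdjoinRoot P))
    (hW : ∀ x ∈ W, AdjoinRoot.root P * x ∈ W) :
    ∃ D : F[X], D.Monic ∧ D ∣ P ∧ D.natDegree + Module.finrank F W = n ∧
      W = multiples P D (Module.finrank F W) := by
  classical
  have hmul : ∀ f : F[X], ∀ x ∈ W, AdjoinRoot.mk P f * x ∈ W := by
    intro f
    induction f using Polynomial.induction_on with
    | C a =>
      intro x hx
      rw [AdjoinRoot.mk_C]
      simpa [Algebra.smul_def, AdjoinRoot.algebraMap_eq] using W.smul_mem a hx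
    | add f g hf hg => intro x hx; rw [map_add, add_mul]; exact W.add_mem (hf x hx) (hg x hx)
    | monomial k a ih =>
      intro x hx
      rw [pow_succ, ← mul_assoc, map_mul, mul_assoc, AdjoinRoot.mk_X]
      exact ih _ (hW x hx)
  let I : Ideal F[X] :=
    { carrier := {f | AdjoinRoot.mk P f ∈ W}
      add_mem' := fun ha hb => by
        show AdjoinRoot.mk P _ ∈ W
        rw [map_add]; exact W.add_mem ha hb
      zero_mem' := by
        show AdjoinRoot.mk P 0 ∈ W
        rw [map_zero]; exact W.zero_mem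
      smul_mem' := fun c f hf => by
        show AdjoinRoot.mk P (c * f) ∈ W
        rw [map_mul]; exact hmul c _ hf }
  have hPI : P ∈ I := by
    show AdjoinRoot.mk P P ∈ W
    rw [AdjoinRoot.mk_self]; exact W.zero_mem
  set d := Submodule.IsPrincipal.generator I
  have hd0 : d ≠ 0 := fun h => hP.monic.ne_zero
    (zero_dvd_iff.1 (h ▸ (Submodule.IsPrincipal.mem_iff_generator_dvd I).1 hPI))
  set D := normalize d with hD_def
  have hDm : D.Monic := monic_normalize hd0
  have hDP : D ∣ P := normalize_dvd_iff.2 ((Submodule.IsPrincipal.mem_iff_generator_dvd I).1 hPI)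
  have hle : D.natDegree ≤ n := hP.deg ▸ natDegree_le_of_dvd hDP hP.monic.ne_zero
  have hm : D.natDegree + (n - D.natDegree) = n := by omega
  have hWeq : W = multiples P D (n - D.natDegree) := by
    refine le_antisymm (fun x hx => ?_) (fun x hx => ?_)
    · obtain ⟨f, rfl⟩ := AdjoinRoot.mk_surjective x
      obtain ⟨f', rfl⟩ : D ∣ f :=
        normalize_dvd_iff.2 ((Submodule.IsPrincipal.mem_iff_generator_dvd I).1 hx)
      exact mk_mul_mem_multiples hDm hDP hP hm f'
    · obtain ⟨v, rfl⟩ := mem_multiples.1 hx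
      exact (Submodule.IsPrincipal.mem_iff_generator_dvd I).2
        ((normalize_dvd_iff.1 (dvd_refl D)).mul_right _)
  have hfin : Module.finrank F W = n - D.natDegree := by
    rw [hWeq]; exact finrank_multiples hDm hP hm
  exact ⟨D, hDm, hDP, by omega, by rw [hfin]; exact hWeq⟩

end CfsgLib.GLFlag
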