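import Cfsg.Agent.GLFlag.Separate
import Cfsg.Agent.GLFlag.Cells
import Cfsg.Agent.CharBasics.Induced
import Cfsg.Agent.IndFun.Basic

/-!
The alternating sums of flag permutation characters are irreducible.
-/

set_option autoImplicit false

namespace CfsgLib.GLFlag

open Finset
open CfsgLib.CharBasics

variable {F : Type*} [Field F] {n : ℕ}

theorem isCharacter_fixedPoint {G : Type*} [Group G] [Fintype G] (H : Subgroup G) :
    Cfsg.IsCharacter G (Cfsg.fixedPointCharacter H) := by
  classical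
  have h : Cfsg.fixedPointCharacter H = Cfsg.indFun H (fun _ => (1 : ℂ)) := by
    funext g
    rw [CfsgLib.IndFun.indFun_const_one_eq_card_fixedBy]
    rfl
  rw [h]
  exact isCharacter_indFun H (isCharacter_of_irr isIrrCharacter_one)

theorem conj_fixedPoint {G : Type*} [Group G] (H : Subgroup G) (g : G) :
    (starRingEnd ℂ) (Cfsg.fixedPointCharacter H g) = Cfsg.fixedPointCharacter H g := Complex.conj_natCast _

theorem unipotent_eq_sum (ν : Fin n → ℕ) :
    Cfsg.unipotentCharacterGL n F ν = ∑ κ ∈ validPerms ν,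
      ((Equiv.Perm.sign κ : ℤ) : ℂ) • Cfsg.fixedPointCharacter (Cfsg.parabolicGL n F (comp ν κ)) := by
  funext g
  rw [Finset.sum_apply]
  unfold Cfsg.unipotentCharacterGL
  rw [← Finset.sum_filter]
  rfl

/-- The shifted partition. -/
def lam (ν : Fin n → ℕ) (i : Fin n) : ℕ := ν i + i.val

theorem inner_pair [Fintype F] [DecidableEq F] {α β : Fin n → ℕ} (hα : ∑ i, α i = n) (hβ : ∑ i, β i = n) :
    Cfsg.classInner (Cfsg.fixedPointCharacter (Cfsg.parabolicGL n F α))
      (Cfsg.fixedPointCharacter (Cfsg.parabolicGL n F β)) = (Pieri.ways (List.ofFn β) α : ℂ) := by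
  rw [classInner_eq]
  simp only [conj_fixedPoint]
  rw [parabolic_pair hα hβ, Pieri.card_margins, ← mul_assoc, mul_comm (Nat.card _ : ℂ)⁻¹, mul_assoc,
    inv_mul_cancel₀ (Nat.cast_ne_zero.2 Nat.card_pos.ne'), mul_one]

theorem inner_unipotent [Fintype F] [DecidableEq F] {ν β : Fin n → ℕ} (hν : ∑ i, ν i = n)
    (hβ : ∑ i, β i = n) :
    Cfsg.classInner (Cfsg.unipotentCharacterGL n F ν)
      (Cfsg.fixedPointCharacter (Cfsg.parabolicGL n F β)) = (Pieri.alt (List.ofFn β) (lam ν) : ℂ) := by
  rw [unipotent_eq_sum, classInner_sum_left, Pieri.alt_eq_signed_ways]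
  rw [← Finset.sum_filter]
  push_cast
  refine Finset.sum_congr rfl fun κ hκ => ?_
  rw [classInner_smul_left, inner_pair ((sum_comp hκ).trans hν) hβ]
  rfl

theorem alt_perm (μ : Fin n → ℕ) (σ : Equiv.Perm (Fin n)) (γ : Fin n → ℕ) :
    Pieri.alt (List.ofFn (μ ∘ σ)) γ = Pieri.alt (List.ofFn μ) γ := by
  rw [Pieri.alt_eq_signed_ways, Pieri.alt_eq_signed_ways]
  refine Finset.sum_congr rfl fun κ _ => ?_
  rw [← Pieri.card_margins, ← Pieri.card_margins, Pieri.card_margins_comp]

theorem alt_self {ν : Fin n → ℕ} (hmono : Monotone ν) :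
    Pieri.alt (List.ofFn ν) (lam ν) = 1 := by
  have := (Pieri.triangular hmono n 0 (by omega)).2
  simp only [Pieri.partsFrom, List.drop_zero, Nat.zero_le, if_true] at this
  exact this

theorem alt_comp_eq {ν : Fin n → ℕ} (hmono : Monotone ν) {κ : Equiv.Perm (Fin n)}
    (hκ : κ ∈ validPerms ν) :
    Pieri.alt (List.ofFn (comp ν κ)) (lam ν) = if κ = 1 then 1 else 0 := by
  split_ifs with h1
  · subst h1
    rw [show comp ν 1 = ν from funext fun i => by simp [comp], alt_self hmono]
  · by_contra hne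
    apply h1
    set σ := Tuple.sort (comp ν κ)
    set μ := comp ν κ ∘ σ with hμ
    have hμm : Monotone μ := Tuple.monotone_sort _
    rw [← alt_perm (comp ν κ) σ] at hne
    have hl : StrictMono (lam ν) := fun a b hab => by
      have := hmono hab.le
      rw [Fin.lt_def] at hab
      simp only [lam]
      omega
    obtain ⟨-, hdom, -⟩ := (Pieri.triangular hμm n 0 (by omega)).1 (lam ν) hl
      (by simpa [Pieri.partsFrom] using hne)
    have hsh : Pieri.shape (lam ν) = ν := funext fun i => by simp [Pieri.shape, lam]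
    rw [hsh] at hdom
    have hparts : parts (comp ν κ) = parts μ := by
      unfold parts
      rw [hμ, ← Multiset.map_map]
      congr 1
      exact (congrArg Finset.val (Finset.map_univ_equiv σ)).symm.trans (Finset.map_val _ _)
    have htail : ∀ t, tail (fun i => (κ i).val) t = tail (fun i : Fin n => i.val) t := fun t => by
      obtain ⟨h2, h3⟩ := tail_facts_of_parts (ν := μ) hμm hκ hparts t
      exact h3 (le_antisymm h2 (hdom t (Nat.zero_le _)))
    refine Equiv.ext fun i => Fin.ext ?_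
    have a := htail i.val
    rw [tail_succ, tail_succ, htail (i.val + 1)] at a
    show (κ i).val = i.val
    omega

theorem norm_one [Fintype F] [DecidableEq F] {ν : Fin n → ℕ} (hmono : Monotone ν) (hν : ∑ i, ν i = n) :
    Cfsg.classInner (Cfsg.unipotentCharacterGL n F ν) (Cfsg.unipotentCharacterGL n F ν) = 1 := by
  nth_rewrite 2 [unipotent_eq_sum]
  rw [classInner_sum_right]
  have h : ∀ κ ∈ validPerms ν, Cfsg.classInner (Cfsg.unipotentCharacterGL n F ν)
      (((Equiv.Perm.sign κ : ℤ) : ℂ) • Cfsg.fixedPointCharacter (Cfsg.parabolicGL n F (comp ν κ)))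
        = if κ = 1 then 1 else 0 := by
    intro κ hκ
    rw [classInner_comm, classInner_smul_left, map_mul, map_intCast, ← classInner_comm,
      inner_unipotent hν ((sum_comp hκ).trans hν), alt_comp_eq hmono hκ]
    split_ifs with h1
    · subst h1; simp
    · simp
  rw [Finset.sum_congr rfl h, Finset.sum_ite_eq', if_pos]
  simp [validPerms]

theorem isIrr_unipotent [Fintype F] [DecidableEq F] {ν : Fin n → ℕ} (hmono : Monotone ν)
    (hν : ∑ i, ν i = n) :
    Cfsg.IsIrrCharacter (GL (Fin n) F) (Cfsg.unipotentCharacterGL n F ν) := by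
  classical
  set χ := Cfsg.unipotentCharacterGL n F ν
  haveI := Fintype.ofFinite (Cfsg.IrrCharacter (GL (Fin n) F))
  have hcf : Cfsg.IsClassFunction (GL (Fin n) F) χ := by
    intro g x
    rw [show χ = _ from unipotent_eq_sum ν, Finset.sum_apply, Finset.sum_apply]
    refine Finset.sum_congr rfl fun κ _ => ?_
    rw [Pi.smul_apply, Pi.smul_apply, isClassFunction (isCharacter_fixedPoint _)]
  have hint : ∀ ψ : Cfsg.IrrCharacter (GL (Fin n) F), ∃ m : ℤ, Cfsg.classInner χ (ψ : GL (Fin n) F → ℂ) = m := by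
    intro ψ
    choose m hm using fun κ => classInner_character_nat
      (isCharacter_fixedPoint (Cfsg.parabolicGL n F (comp ν κ))) ψ
    refine ⟨∑ κ ∈ validPerms ν, (Equiv.Perm.sign κ : ℤ) * m κ, ?_⟩
    rw [show χ = _ from unipotent_eq_sum ν, classInner_sum_left, Int.cast_sum]
    refine Finset.sum_congr rfl fun κ _ => ?_
    rw [classInner_smul_left, hm]
    push_cast
    ring
  choose c hc using hint
  have hexp : χ = ∑ ψ : Cfsg.IrrCharacter (GL (Fin n) F), (c ψ : ℂ) • (ψ : GL (Fin n) F → ℂ) := by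
    conv_lhs => rw [classFun_expand hcf]
    simp only [hc]
  have hsq : ∑ ψ, c ψ * c ψ = 1 := by
    have h1 := norm_one (F := F) hmono hν
    change Cfsg.classInner χ χ = 1 at h1
    nth_rewrite 2 [hexp] at h1
    rw [classInner_sum_right] at h1
    have h2 : ∀ ψ : Cfsg.IrrCharacter (GL (Fin n) F),
        Cfsg.classInner χ ((c ψ : ℂ) • (ψ : GL (Fin n) F → ℂ)) = ((c ψ * c ψ : ℤ) : ℂ) := fun ψ => by
      rw [classInner_comm, classInner_smul_left, map_mul, map_intCast, ← classInner_comm, hc]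
      push_cast
      rfl
    simp only [h2] at h1
    exact_mod_cast h1
  obtain ⟨ψ, -, hψ⟩ := Finset.exists_ne_zero_of_sum_ne_zero (hsq.trans_ne one_ne_zero)
  have hψ1 : 1 ≤ c ψ * c ψ := lt_of_le_of_ne (mul_self_nonneg _) (Ne.symm hψ)
  have hrest : ∀ φ, φ ≠ ψ → c φ = 0 := by
    intro φ hφ
    have h := Finset.add_sum_erase univ (fun x => c x * c x) (mem_univ ψ)
    rw [hsq] at h
    have h2 : c φ * c φ ≤ ∑ x ∈ univ.erase ψ, c x * c x :=
      Finset.single_le_sum (fun x _ => mul_self_nonneg (c x)) (mem_erase.2 ⟨hφ, mem_univ _⟩)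
    exact mul_self_eq_zero.1 (le_antisymm (by omega) (mul_self_nonneg _))
  have hχ : χ = (c ψ : ℂ) • (ψ : GL (Fin n) F → ℂ) := by
    rw [hexp, Finset.sum_eq_single ψ]
    · intro φ _ hφ; rw [hrest φ hφ, Int.cast_zero, zero_smul]
    · simp
  have hc1 : c ψ * c ψ = 1 := by
    rw [← hsq, Finset.sum_eq_single ψ]
    · intro φ _ hφ; rw [hrest φ hφ, mul_zero]
    · simp
  obtain ⟨m, hm⟩ := classInner_characters_nat (isCharacter_of_irr ψ.2)
    (isCharacter_fixedPoint (Cfsg.parabolicGL n F ν))
  have hpos := inner_unipotent (F := F) hν hν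
  change Cfsg.classInner χ _ = _ at hpos
  rw [alt_self hmono, hχ, classInner_smul_left, hm] at hpos
  rcases mul_self_eq_one_iff.1 hc1 with h | h
  · rw [hχ, h, Int.cast_one, one_smul]; exact ψ.2
  · exfalso
    rw [h] at hpos
    have h2 : (-1 : ℤ) * (m : ℤ) = 1 := by
      have : (((-1 : ℤ) * (m : ℤ) : ℤ) : ℂ) = ((1 : ℤ) : ℂ) := by push_cast; exact_mod_cast hpos
      exact Int.cast_injective this
    omega

end CfsgLib.GLFlag
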