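import Cfsg.Agent.GLFlag.Count

/-!
Separation of the alternating sums of flag permutation characters by cyclic elements.
-/

set_option autoImplicit false

namespace CfsgLib.GLFlag

open Polynomial Finset UniqueFactorizationMonoid

variable {F : Type*} [Field F] {n : ℕ}

theorem exists_irreducible_deg [Finite F] (d : ℕ) :
    ∃ f : F[X], f.Monic ∧ f.natDegree = d ∧ f.coeff 0 ≠ 0 ∧ (d ≠ 0 → Irreducible f) := by
  rcases Nat.lt_or_ge d 2 with hd | hd
  · rcases (show d = 0 ∨ d = 1 by omega) with rfl | rfl
    · exact ⟨1, monic_one, natDegree_one, by simp, fun h => absurd rfl h⟩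
    · exact ⟨X - C 1, monic_X_sub_C _, natDegree_X_sub_C _, by simp,
        fun _ => irreducible_X_sub_C _⟩
  · haveI := Fintype.ofFinite F
    obtain ⟨p, hp⟩ := CharP.exists F
    haveI : Fact p.Prime := ⟨CharP.char_is_prime F p⟩
    haveI : NeZero d := ⟨by omega⟩
    set E := FiniteField.Extension F p d
    haveI : Finite E := Module.finite_of_finite F
    obtain ⟨α, hα⟩ := Field.exists_primitive_element F E
    have hint : IsIntegral F α := IsIntegral.of_finite F α
    have hdeg : (minpoly F α).natDegree = d := by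
      rw [← IntermediateField.adjoin.finrank hint, hα, IntermediateField.finrank_top',
        FiniteField.finrank_extension]
    refine ⟨minpoly F α, minpoly.monic hint, hdeg, ?_, fun _ => minpoly.irreducible hint⟩
    intro h0
    have h := minpoly.coeff_zero_eq_zero hint |>.1 h0
    rw [h, minpoly.zero, natDegree_X] at hdeg
    omega

/-- The chosen polynomial of each degree. -/
noncomputable def irr (F : Type*) [Field F] [Finite F] (d : ℕ) : F[X] :=
  (exists_irreducible_deg d).choose

theorem irr_spec [Finite F] (d : ℕ) : (irr F d).Monic ∧ (irr F d).natDegree = d ∧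
    (irr F d).coeff 0 ≠ 0 ∧ (d ≠ 0 → Irreducible (irr F d)) :=
  (exists_irreducible_deg d).choose_spec

theorem good_prod [Finite F] {ρ : Fin n → ℕ} (hρ : ∑ i, ρ i = n) :
    Good (∏ i, irr F (ρ i)) n := by
  refine ⟨monic_prod_of_monic _ _ fun i _ => (irr_spec _).1, ?_, ?_⟩
  · rw [natDegree_prod_of_monic _ _ fun i _ => (irr_spec _).1]
    simp only [(irr_spec (F := F) _).2.1]
    exact hρ
  · rw [coeff_zero_prod]
    exact prod_ne_zero_iff.2 fun i _ => (irr_spec _).2.2.1

/-- The multiset of parts. -/
def parts (α : Fin n → ℕ) : Multiset ℕ := univ.val.map α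

/-- The number of nonzero parts. -/
def numParts (m : Multiset ℕ) : ℕ := (m.filter (· ≠ 0)).card

theorem exists_perm_of_parts_eq {α β : Fin n → ℕ} (h : parts α = parts β) :
    ∃ σ : Equiv.Perm (Fin n), β = α ∘ σ := by
  classical
  have hc : ∀ a, Fintype.card {i // β i = a} = Fintype.card {i // α i = a} := by
    intro a
    have h1 : ∀ γ : Fin n → ℕ, Fintype.card {i // γ i = a} = (parts γ).count a := fun γ => by
      rw [Fintype.card_subtype, parts, Multiset.count_map, ← Finset.filter_val]
      rw [Finset.card_def]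
      congr 2
      exact Finset.filter_congr fun i _ => eq_comm
    rw [h1, h1, h]
  refine ⟨Equiv.ofFiberEquiv (f := β) (g := α) fun a => Fintype.equivOfCardEq (hc a), ?_⟩
  funext i
  exact (Equiv.ofFiberEquiv_map (f := β) (g := α) _ i).symm

theorem factors_numParts [Finite F] {ρ μ : Fin n → ℕ}
    (Q : Factors (∏ i, irr F (ρ i)) μ) :
    numParts (parts μ) ≤ numParts (parts ρ) ∧
      (numParts (parts μ) = numParts (parts ρ) → parts μ = parts ρ) := by
  classical
  set NF : F[X] → Multiset F[X] := fun f => normalizedFactors f with hNF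
  have hsum : ∀ g : Fin n → F[X], (∀ i, (g i).Monic) →
      NF (∏ i, g i) = ∑ i, NF (g i) := by
    intro g hg
    rw [hNF]
    suffices ∀ s : Finset (Fin n), normalizedFactors (∏ i ∈ s, g i) = ∑ i ∈ s, normalizedFactors (g i) from
      this univ
    intro s
    induction s using Finset.induction_on with
    | empty => simp
    | insert a s has ih =>
      rw [prod_insert has, sum_insert has, normalizedFactors_mul (hg a).ne_zero
        (prod_ne_zero_iff.2 fun i _ => (hg i).ne_zero), ih]
  have hdeg : ∀ f : F[X], f.Monic → f.natDegree = ((NF f).map natDegree).sum := by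
    intro f hf
    have hp : (NF f).prod = f := by
      have := prod_normalizedFactors hf.ne_zero
      refine eq_of_monic_of_associated (monic_multiset_prod_of_monic _ id ?_ |> (by simpa using ·)) hf this
      intro g hg
      have := normalize_normalized_factor g hg
      rw [id, ← this]
      exact monic_normalize (prime_of_normalized_factor g hg).ne_zero
    conv_lhs => rw [← hp]
    refine natDegree_multiset_prod _ ?_
    intro h0
    exact (prime_of_normalized_factor _ h0).ne_zero rfl
  have hρ : ∀ d, NF (irr F d) = if d = 0 then 0 else {irr F d} := by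
    intro d
    split_ifs with hd
    · subst hd
      have : irr F 0 = 1 := (irr_spec 0).1.natDegree_eq_zero.1 (irr_spec 0).2.1
      rw [this, hNF]
      exact normalizedFactors_one
    · rw [hNF]
      show normalizedFactors _ = _
      rw [normalizedFactors_irreducible ((irr_spec d).2.2.2 hd), (irr_spec d).1.normalize_eq_self]
  have hT : NF (∏ i, irr F (ρ i)) = ∑ i, NF (irr F (ρ i)) :=
    hsum _ fun i => (irr_spec _).1
  have hT' : NF (∏ i, irr F (ρ i)) = ∑ i, NF (Q.1 i) := by
    rw [← hsum Q.1 fun i => (Q.2.1 i).1, Q.2.2]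
  have hnp : ∀ α : Fin n → ℕ, numParts (parts α) = ∑ i, if α i = 0 then 0 else 1 := by
    intro α
    rw [numParts, parts, Multiset.filter_map, Multiset.card_map, ← Finset.filter_val,
      ← Finset.card_def, Finset.card_filter]
    exact Finset.sum_congr rfl fun i _ => by simp [Function.comp]
  have hcardρ : numParts (parts ρ) = ∑ i, (NF (Q.1 i)).card := by
    rw [← Multiset.card_sum, ← hT', hT, Multiset.card_sum, hnp]
    exact Finset.sum_congr rfl fun i _ => by rw [hρ]; split_ifs <;> simp
  have hQ0 : ∀ i, (NF (Q.1 i)).card = 0 ↔ μ i = 0 := by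
    intro i
    constructor
    · intro h
      rw [← (Q.2.1 i).2, hdeg _ (Q.2.1 i).1, Multiset.card_eq_zero.1 h]
      simp
    · intro h
      have : Q.1 i = 1 := (Q.2.1 i).1.natDegree_eq_zero.1 ((Q.2.1 i).2.trans h)
      rw [this, hNF]
      show (normalizedFactors (1 : F[X])).card = 0
      rw [normalizedFactors_one, Multiset.card_zero]
  have hge : ∀ i, (if μ i = 0 then 0 else 1) ≤ (NF (Q.1 i)).card := by
    intro i
    split_ifs with h
    · exact Nat.zero_le _
    · exact Nat.one_le_iff_ne_zero.2 (mt (hQ0 i).1 h)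
  refine ⟨by rw [hnp, hcardρ]; exact Finset.sum_le_sum fun i _ => hge i, fun heq => ?_⟩
  rw [hnp, hcardρ] at heq
  have hone := (Finset.sum_eq_sum_iff_of_le fun i _ => hge i).1 heq
  have hmap : ∀ α : Fin n → ℕ, ∀ G : Fin n → F[X], (∀ i, (G i).Monic) → (∀ i, (G i).natDegree = α i) →
      (∀ i, (NF (G i)).card = if α i = 0 then 0 else 1) →
      (parts α).filter (· ≠ 0) = (∑ i, NF (G i)).map natDegree := by
    intro α G hG hd h1
    suffices ∀ s : Finset (Fin n), (s.val.map α).filter (· ≠ 0) = (∑ i ∈ s, NF (G i)).map natDegree from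
      this univ
    intro s
    induction s using Finset.induction_on with
    | empty => simp
    | insert a s has ih =>
      rw [sum_insert has, Multiset.map_add, ← ih, Finset.insert_val_of_notMem has, Multiset.map_cons,
        Multiset.filter_cons]
      congr 1
      have h := h1 a
      by_cases h0 : α a = 0
      · rw [if_pos h0] at h
        rw [Multiset.card_eq_zero.1 h]
        simp [h0]
      · rw [if_neg h0] at h
        obtain ⟨g, hg⟩ := Multiset.card_eq_one.1 h
        have := hdeg (G a) (hG a)
        rw [hg, hd] at this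
        simp at this
        simp [h0, hg, ← this]
  have hm := hmap μ Q.1 (fun i => (Q.2.1 i).1) (fun i => (Q.2.1 i).2)
    (fun i => (hone i (mem_univ i)).symm)
  have hr := hmap ρ (fun i => irr F (ρ i)) (fun i => (irr_spec _).1) (fun i => (irr_spec _).2.1)
    (fun i => by rw [hρ]; split_ifs <;> simp)
  rw [← hT, hT', ← hm] at hr
  have hzero : ∀ α : Fin n → ℕ,
      parts α = (parts α).filter (· ≠ 0) + Multiset.replicate (n - numParts (parts α)) 0 := by
    intro α
    have hlen : ((parts α).filter fun a => ¬ a ≠ 0).card = n - numParts (parts α) := by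
      have := congrArg Multiset.card (Multiset.filter_add_not (fun a => a ≠ 0) (parts α))
      rw [Multiset.card_add] at this
      have hc : (parts α).card = n := by simp [parts]
      unfold numParts
      omega
    conv_lhs => rw [← Multiset.filter_add_not (fun a => a ≠ 0) (parts α)]
    rw [← hlen]
    congr 1
    refine Multiset.eq_replicate.2 ⟨rfl, fun b hb => ?_⟩
    simpa using (Multiset.mem_filter.1 hb).2
  rw [hzero μ, hzero ρ, show numParts (parts μ) = numParts (parts ρ) from congrArg Multiset.card hr.symm, hr]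

/-- The composition attached to a permutation in the alternating sum. -/
def comp (ν : Fin n → ℕ) (κ : Equiv.Perm (Fin n)) : Fin n → ℕ :=
  fun i => ν i + i.val - (κ i).val

/-- The permutations whose term is present. -/
def validPerms (ν : Fin n → ℕ) : Finset (Equiv.Perm (Fin n)) :=
  univ.filter fun κ => ∀ i : Fin n, (κ i).val ≤ ν i + i.val

theorem sum_comp {ν : Fin n → ℕ} {κ : Equiv.Perm (Fin n)} (hκ : κ ∈ validPerms ν) :
    ∑ i, comp ν κ i = ∑ i, ν i := by
  have h : ∀ i ∈ (univ : Finset (Fin n)), comp ν κ i + (κ i).val = ν i + i.val := fun i _ =>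
    Nat.sub_add_cancel ((mem_filter.1 hκ).2 i)
  have h2 := Finset.sum_congr rfl h
  rw [sum_add_distrib, sum_add_distrib, Equiv.sum_comp κ (fun i : Fin n => i.val)] at h2
  omega

/-- The signed multiplicity of a multiset of parts. -/
def signedCount (ν : Fin n → ℕ) (m : Multiset ℕ) : ℂ :=
  ∑ κ ∈ (validPerms ν).filter (fun κ => parts (comp ν κ) = m), ((Equiv.Perm.sign κ : ℤ) : ℂ)

theorem unipotent_apply (ν : Fin n → ℕ) (hν : ∑ i, ν i = n) {P : F[X]} (hP : Good P n)
    (U : Finset (Multiset ℕ)) (hU : ∀ κ ∈ validPerms ν, parts (comp ν κ) ∈ U)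
    (c : Multiset ℕ → ℂ)
    (hc : ∀ μ : Fin n → ℕ, ∑ i, μ i = n → c (parts μ) = (Nat.card (Factors P μ) : ℂ)) :
    Cfsg.unipotentCharacterGL n F ν (cyclicGL hP) = ∑ m ∈ U, signedCount ν m * c m := by
  unfold Cfsg.unipotentCharacterGL
  rw [← Finset.sum_filter]
  change ∑ κ ∈ validPerms ν, _ = _
  rw [← Finset.sum_fiberwise_of_maps_to (g := fun κ => parts (comp ν κ)) hU]
  refine Finset.sum_congr rfl fun m _ => ?_
  unfold signedCount
  rw [Finset.sum_mul]
  refine Finset.sum_congr rfl fun κ hκ => ?_
  obtain ⟨hv, hm⟩ := mem_filter.1 hκ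
  rw [← hm, hc _ ((sum_comp hv).trans hν)]
  exact congrArg _ (character_cyclic hP ((sum_comp hv).trans hν))

theorem signedCount_eq [Finite F] {ν ν' : Fin n → ℕ} (hν : ∑ i, ν i = n) (hν' : ∑ i, ν' i = n)
    (h : Cfsg.unipotentCharacterGL n F ν = Cfsg.unipotentCharacterGL n F ν') :
    ∀ r : ℕ, ∀ α : Fin n → ℕ, ∑ i, α i = n → numParts (parts α) = r →
      signedCount ν (parts α) = signedCount ν' (parts α) := by
  classical
  intro r
  induction r using Nat.strong_induction_on with
  | _ r ih =>
    intro α hα hr
    have hP := good_prod (F := F) hα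
    set P := ∏ i, irr F (α i) with hPdef
    let c : Multiset ℕ → ℂ := fun m =>
      if hm : ∃ μ : Fin n → ℕ, parts μ = m then (Nat.card (Factors P hm.choose) : ℂ) else 0
    have hc : ∀ μ : Fin n → ℕ, ∑ i, μ i = n → c (parts μ) = (Nat.card (Factors P μ) : ℂ) := by
      intro μ _
      have hex : ∃ μ' : Fin n → ℕ, parts μ' = parts μ := ⟨μ, rfl⟩
      simp only [c]
      rw [dif_pos hex]
      obtain ⟨σ, hσ⟩ := exists_perm_of_parts_eq hex.choose_spec
      congr 1
      conv_rhs => rw [hσ, card_factors_comp]
    set U : Finset (Multiset ℕ) := insert (parts α)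
      ((validPerms ν).image (fun κ => parts (comp ν κ)) ∪ (validPerms ν').image fun κ => parts (comp ν' κ))
    have e1 := unipotent_apply ν hν hP U (fun κ hκ => mem_insert_of_mem (mem_union_left _ (mem_image.2 ⟨κ, hκ, rfl⟩))) c hc
    have e2 := unipotent_apply ν' hν' hP U (fun κ hκ => mem_insert_of_mem (mem_union_right _ (mem_image.2 ⟨κ, hκ, rfl⟩))) c hc
    rw [h, e2] at e1
    have hzero : ∀ m ∈ U, m ≠ parts α → (signedCount ν m - signedCount ν' m) * c m = 0 := by
      intro m hm hne
      obtain ⟨μ, hμ, rfl⟩ : ∃ μ : Fin n → ℕ, ∑ i, μ i = n ∧ parts μ = m := by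
        simp only [U, mem_insert, mem_union, mem_image] at hm
        rcases hm with rfl | ⟨κ, hκ, rfl⟩ | ⟨κ, hκ, rfl⟩
        · exact absurd rfl hne
        · exact ⟨_, (sum_comp hκ).trans hν, rfl⟩
        · exact ⟨_, (sum_comp hκ).trans hν', rfl⟩
      by_cases hlt : numParts (parts μ) < r
      · rw [ih _ hlt μ hμ rfl, sub_self, zero_mul]
      · rw [hc μ hμ, mul_eq_zero]
        right
        haveI : IsEmpty (Factors P μ) := ⟨fun Q => by
          obtain ⟨hle, heq⟩ := factors_numParts Q
          exact hne (heq (by omega))⟩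
        simp
    have hsum : ∑ m ∈ U, (signedCount ν m - signedCount ν' m) * c m = 0 := by
      simp only [sub_mul, sum_sub_distrib]
      rw [e1, sub_self]
    rw [Finset.sum_eq_single_of_mem (parts α) (mem_insert_self _ _) hzero, hc α hα,
      mul_eq_zero] at hsum
    refine sub_eq_zero.1 (hsum.resolve_right fun h0 => ?_)
    rw [Nat.cast_eq_zero, Nat.card_eq_zero] at h0
    rcases h0 with h0 | h0
    · exact h0.elim ⟨fun i => irr F (α i), fun i => ⟨(irr_spec _).1, (irr_spec _).2.1⟩, rfl⟩
    · haveI : Finite (Factors P α) := by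
        haveI := Fintype.ofFinite F
        refine Finite.of_injective (fun (Q : Factors P α) (i : Fin n) (j : Fin (n + 1)) => (Q.1 i).coeff j) ?_
        intro Q Q' he
        refine Subtype.ext (funext fun i => Polynomial.ext fun j => ?_)
        by_cases hj : j < n + 1
        · exact congrFun (congrFun he i) ⟨j, hj⟩
        · have hb : ∀ R : Factors P α, (R.1 i).natDegree < j := fun R => by
            rw [(R.2.1 i).2]
            have : α i ≤ n := hα ▸ Finset.single_le_sum (fun l _ => Nat.zero_le (α l)) (mem_univ i)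
            omega
          rw [coeff_eq_zero_of_natDegree_lt (hb Q), coeff_eq_zero_of_natDegree_lt (hb Q')]
      exact not_finite (Factors P α)

theorem sum_le_sum_tail {f : Fin n → ℕ} (hf : Monotone f) (σ : Equiv.Perm (Fin n)) (t : ℕ) :
    ∑ i ∈ univ.filter (fun i : Fin n => t ≤ i.val), f (σ i) ≤
      ∑ i ∈ univ.filter (fun i : Fin n => t ≤ i.val), f i := by
  classical
  set T := univ.filter (fun i : Fin n => t ≤ i.val)
  rw [← Finset.sum_image (f := f) (g := σ) (fun a _ b _ h => σ.injective h)]
  set S := T.image σ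
  have hcard : S.card = T.card := Finset.card_image_of_injective _ σ.injective
  rw [← Finset.sum_inter_add_sum_sdiff S T f, ← Finset.sum_inter_add_sum_sdiff T S f,
    Finset.inter_comm T S]
  refine Nat.add_le_add_left ?_ _
  by_cases ht : t < n
  · have h1 : ∀ i ∈ S \ T, f i ≤ f ⟨t, ht⟩ := fun i hi => hf (by
      simp only [mem_sdiff, T, mem_filter, mem_univ, true_and] at hi
      exact Fin.le_def.2 (by simp; omega))
    have h2 : ∀ i ∈ T \ S, f ⟨t, ht⟩ ≤ f i := fun i hi => hf (by
      simp only [mem_sdiff, T, mem_filter, mem_univ, true_and] at hi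
      exact Fin.le_def.2 (by simp; omega))
    have hc : (S \ T).card = (T \ S).card := (Finset.card_sdiff_comm hcard.symm).symm
    refine (Finset.sum_le_card_nsmul _ _ _ h1).trans ?_
    rw [hc]
    exact Finset.card_nsmul_le_sum _ _ _ h2
  · have hT : T = ∅ := Finset.filter_false_of_mem (fun i _ => by have := i.isLt; omega)
    simp [S, hT]

/-- Tail sum. -/
def tail (f : Fin n → ℕ) (t : ℕ) : ℕ := ∑ i ∈ univ.filter (fun i : Fin n => t ≤ i.val), f i

theorem tail_succ (f : Fin n → ℕ) (i : Fin n) : tail f i.val = f i + tail f (i.val + 1) := by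
  unfold tail
  rw [show (univ.filter fun j : Fin n => i.val ≤ j.val) = insert i (univ.filter fun j : Fin n => i.val + 1 ≤ j.val) by
    ext j; simp only [mem_filter, mem_univ, true_and, mem_insert, Fin.ext_iff]; omega]
  rw [sum_insert (by simp)]

theorem tail_facts_of_parts {ν ν' : Fin n → ℕ} (hmono : Monotone ν) {κ : Equiv.Perm (Fin n)}
    (hκ : κ ∈ validPerms ν') (hm : parts (comp ν' κ) = parts ν) (t : ℕ) :
    tail ν' t ≤ tail ν t ∧ (tail ν' t = tail ν t → tail (fun i => (κ i).val) t = tail (fun i : Fin n => i.val) t) := by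
  obtain ⟨σ, hσ⟩ := exists_perm_of_parts_eq hm.symm
  have h : tail (comp ν' κ) t + tail (fun i => (κ i).val) t = tail ν' t + tail (fun i : Fin n => i.val) t := by
    unfold tail
    rw [← sum_add_distrib, ← sum_add_distrib]
    exact sum_congr rfl fun i _ => Nat.sub_add_cancel ((mem_filter.1 hκ).2 i)
  have h1 : tail (comp ν' κ) t ≤ tail ν t := by
    rw [hσ]; exact sum_le_sum_tail hmono σ t
  have h2 : tail (fun i => (κ i).val) t ≤ tail (fun i : Fin n => i.val) t :=
    sum_le_sum_tail (f := fun i : Fin n => i.val) (fun _ _ h => h) κ t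
  constructor <;> omega

theorem signedCount_self {ν : Fin n → ℕ} (hmono : Monotone ν) : signedCount ν (parts ν) = 1 := by
  unfold signedCount
  have h1 : (validPerms ν).filter (fun κ => parts (comp ν κ) = parts ν) = {1} := by
    ext κ
    constructor
    · intro hκ
      obtain ⟨hv, hm⟩ := mem_filter.1 hκ
      rw [mem_singleton]
      refine Equiv.ext fun i => Fin.ext ?_
      have a := (tail_facts_of_parts hmono hv hm i.val).2 rfl
      have b := (tail_facts_of_parts hmono hv hm (i.val + 1)).2 rfl
      rw [tail_succ, tail_succ] at a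
      show (κ i).val = i.val
      omega
    · intro hκ
      rw [mem_singleton] at hκ
      subst hκ
      simp only [mem_filter, validPerms, mem_univ, true_and]
      refine ⟨fun i => by simp, congrArg parts (funext fun i => ?_)⟩
      simp [comp]
  rw [h1, sum_singleton]
  simp

theorem eq_of_unipotent_eq [Finite F] {ν ν' : Fin n → ℕ} (hmono : Monotone ν)
    (hmono' : Monotone ν') (hν : ∑ i, ν i = n) (hν' : ∑ i, ν' i = n)
    (h : Cfsg.unipotentCharacterGL n F ν = Cfsg.unipotentCharacterGL n F ν') : ν = ν' := by
  have key : ∀ a b : Fin n → ℕ, Monotone a → (signedCount b (parts a) = 1) → ∀ t, tail b t ≤ tail a t := by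
    intro a b ha hab t
    obtain ⟨κ, hκ⟩ : ((validPerms b).filter fun κ => parts (comp b κ) = parts a).Nonempty := by
      rw [Finset.nonempty_iff_ne_empty]
      intro he
      rw [signedCount, he, sum_empty] at hab
      exact zero_ne_one hab
    obtain ⟨hv, hm⟩ := mem_filter.1 hκ
    exact (tail_facts_of_parts ha hv hm t).1
  have h1 : signedCount ν' (parts ν) = 1 := by
    rw [← signedCount_eq hν hν' h _ ν hν rfl, signedCount_self hmono]
  have h2 : signedCount ν (parts ν') = 1 := by
    rw [signedCount_eq hν hν' h _ ν' hν' rfl, signedCount_self hmono']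
  have ht : ∀ t, tail ν t = tail ν' t := fun t =>
    le_antisymm (key ν' ν hmono' h2 t) (key ν ν' hmono h1 t)
  funext i
  have := ht i.val
  rw [tail_succ, tail_succ, ht (i.val + 1)] at this
  omega

end CfsgLib.GLFlag
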